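import Cfsg.Agent.H533.T5.Defs
import Cfsg.Agent.Lib.Cores

/-!
# The block argument

`B` is a block (normal in `M`), `c` and `d` move `B` in the same way and `B`, `c B c⁻¹`,
`c² B c⁻²` commute.  If all `⟨c, n d n⁻¹⟩`, `n ∈ M`, are `p`-groups then `B` has a unique Sylow
`p`-subgroup.
-/

set_option autoImplicit false

namespace Cfsg.Agent.H533.T5.Block

open Subgroup

/-- Double counting: two families of partial fixing relations. -/
theorem card_sylow_le_one {B : Type*} [Group B] [Finite B] {p : ℕ} [Fact p.Prime]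
    (f₁ f₂ : B → Sylow p B → Prop)
    (h₁ : ∀ X b b', f₁ b X → f₁ b' X → (b' * b⁻¹) • X = X)
    (h₂ : ∀ X b b', f₂ b X → f₂ b' X → (b' * b⁻¹) • X = X)
    (h : ∀ b₁ b₂, ∃ X, f₁ b₁ X ∧ f₂ b₂ X) : Nat.card (Sylow p B) = 1 := by
  classical
  choose X hX₁ hX₂ using h
  obtain ⟨X₀⟩ : Nonempty (Sylow p B) := inferInstance
  have hg : ∀ Y : Sylow p B, ∃ g : B, g • X₀ = Y := fun Y => MulAction.exists_smul_eq B X₀ Y
  choose g hg using hg
  have hr : ∀ Y : Sylow p B, ∃ r : B × B, (∃ b : B × B, X b.1 b.2 = Y) → X r.1 r.2 = Y := by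
    intro Y
    by_cases hY : ∃ b : B × B, X b.1 b.2 = Y
    · obtain ⟨b, hb⟩ := hY
      exact ⟨b, fun _ => hb⟩
    · exact ⟨1, fun h => absurd h hY⟩
  choose r hr using hr
  let N₀ := MulAction.stabilizer B X₀
  have hmem : ∀ (Y : Sylow p B) (n : B), n • Y = Y → (g Y)⁻¹ * n * g Y ∈ N₀ := by
    intro Y n hn
    rw [MulAction.mem_stabilizer_iff, mul_smul, mul_smul, hg, hn, inv_smul_eq_iff, hg]
  have e₁ : ∀ b : B × B, (b.1 * (r (X b.1 b.2)).1⁻¹) • X b.1 b.2 = X b.1 b.2 := by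
    intro b
    have h1 := hr (X b.1 b.2) ⟨b, rfl⟩
    refine h₁ _ _ _ ?_ (hX₁ b.1 b.2)
    have h2 := hX₁ (r (X b.1 b.2)).1 (r (X b.1 b.2)).2
    rwa [h1] at h2
  have e₂ : ∀ b : B × B, (b.2 * (r (X b.1 b.2)).2⁻¹) • X b.1 b.2 = X b.1 b.2 := by
    intro b
    have h1 := hr (X b.1 b.2) ⟨b, rfl⟩
    refine h₂ _ _ _ ?_ (hX₂ b.1 b.2)
    have h2 := hX₂ (r (X b.1 b.2)).1 (r (X b.1 b.2)).2
    rwa [h1] at h2
  let Φ : B × B → Sylow p B × N₀ × N₀ := fun b =>
    (X b.1 b.2, ⟨_, hmem _ _ (e₁ b)⟩, ⟨_, hmem _ _ (e₂ b)⟩)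
  have hΦ : Function.Injective Φ := by
    intro b b' hbb
    simp only [Φ, Prod.mk.injEq, Subtype.mk.injEq] at hbb
    obtain ⟨h1, h2, h3⟩ := hbb
    rw [h1] at h2 h3
    have h2' := mul_right_cancel h2
    have h3' := mul_right_cancel h3
    have h2'' := mul_left_cancel h2'
    have h3'' := mul_left_cancel h3'
    exact Prod.ext (mul_right_cancel h2'') (mul_right_cancel h3'')
  have hcard := Nat.card_le_card_of_injective Φ hΦ
  rw [Nat.card_prod, Nat.card_prod, Nat.card_prod] at hcard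
  have hidx : N₀.index = Nat.card (Sylow p B) := MulAction.index_stabilizer_of_transitive B X₀
  have hB : Nat.card B = Nat.card N₀ * Nat.card (Sylow p B) := by
    rw [← hidx, Subgroup.card_mul_index]
  have hN : 0 < Nat.card N₀ := Nat.card_pos
  have hS : 0 < Nat.card (Sylow p B) := Nat.card_pos
  rw [hB] at hcard
  set a := Nat.card N₀
  set s := Nat.card (Sylow p B)
  have h1 : (a * a) * (s * s) ≤ (a * a) * s := by
    calc (a * a) * (s * s) = a * s * (a * s) := by ring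
      _ ≤ s * (a * a) := hcard
      _ = (a * a) * s := by ring
  have h2 : s * s ≤ s := Nat.le_of_mul_le_mul_left h1 (by positivity)
  nlinarith

variable {G : Type*} [Group G]

/-- The trace of a Sylow subgroup on a normal subgroup. -/
theorem not_dvd_relIndex [Finite G] {p : ℕ} (H N : Subgroup G) [N.Normal] (h : ¬ p ∣ H.index) :
    ¬ p ∣ H.relIndex N := by
  intro hd
  apply h
  have h1 : H.relIndex (H ⊔ N) * Nat.card H = Nat.card ↥(H ⊔ N) := by
    rw [mul_comm]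
    have := Subgroup.card_mul_index (H.subgroupOf (H ⊔ N))
    rwa [Nat.card_congr (Subgroup.subgroupOfEquivOfLe (le_sup_left : H ≤ H ⊔ N)).toEquiv] at this
  have h2 : N.relIndex H * Nat.card ↥(N ⊓ H) = Nat.card H := by
    have := Subgroup.card_mul_index (N.subgroupOf H)
    rw [mul_comm] at this
    rw [← this, Subgroup.relIndex]
    congr 1
    rw [← Subgroup.inf_subgroupOf_right]
    exact (Nat.card_congr (Subgroup.subgroupOfEquivOfLe (inf_le_right : N ⊓ H ≤ H)).toEquiv).symm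
  have h3 : N.relIndex H * Nat.card N = Nat.card ↥(H ⊔ N) := by
    rw [← Subgroup.relIndex_sup_right H N]
    have := Subgroup.card_mul_index (N.subgroupOf (H ⊔ N))
    rw [mul_comm] at this
    rw [← this, Subgroup.relIndex]
    congr 1
    exact (Nat.card_congr (Subgroup.subgroupOfEquivOfLe (le_sup_right : N ≤ H ⊔ N)).toEquiv).symm
  have h4 : H.relIndex N * Nat.card ↥(N ⊓ H) = Nat.card N := by
    have := Subgroup.card_mul_index (H.subgroupOf N)
    rw [mul_comm] at this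
    rw [← this, Subgroup.relIndex]
    congr 1
    rw [← Subgroup.inf_subgroupOf_left]
    exact (Nat.card_congr (Subgroup.subgroupOfEquivOfLe (inf_le_left : N ⊓ H ≤ N)).toEquiv).symm
  have h5 : H.relIndex (H ⊔ N) = H.relIndex N := by
    have hpos : 0 < Nat.card ↥(N ⊓ H) := Nat.card_pos
    have hposH : 0 < N.relIndex H := by
      rcases Nat.eq_zero_or_pos (N.relIndex H) with h0 | h0
      · rw [h0, zero_mul] at h2
        exact absurd h2.symm (Nat.card_pos).ne'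
      · exact h0
    have : H.relIndex (H ⊔ N) * (N.relIndex H * Nat.card ↥(N ⊓ H))
        = H.relIndex N * (N.relIndex H * Nat.card ↥(N ⊓ H)) := by
      calc H.relIndex (H ⊔ N) * (N.relIndex H * Nat.card ↥(N ⊓ H))
          = H.relIndex (H ⊔ N) * Nat.card H := by rw [h2]
        _ = N.relIndex H * Nat.card N := by rw [h1, h3]
        _ = N.relIndex H * (H.relIndex N * Nat.card ↥(N ⊓ H)) := by rw [h4]
        _ = _ := by ring
    exact Nat.eq_of_mul_eq_mul_right (by positivity) this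
  rw [← h5] at hd
  exact hd.trans (Subgroup.relIndex_dvd_index_of_le le_sup_left)

/-- The block lemma. -/
theorem card_sylow_block [Finite G] {p : ℕ} [Fact p.Prime] {M B : Subgroup G} [M.Normal]
    (hBM : B ≤ M) (hMB : M ≤ Subgroup.normalizer (B : Set G)) {c d : G}
    (ht₁ : c⁻¹ * d ∈ Subgroup.normalizer (B : Set G))
    (ht₂ : (c ^ 2)⁻¹ * d ^ 2 ∈ Subgroup.normalizer (B : Set G))
    (hc₁ : ∀ x ∈ B, ∀ y ∈ B, Commute x (c * y * c⁻¹))
    (hc₂ : ∀ x ∈ B, ∀ y ∈ B, Commute x (c ^ 2 * y * (c ^ 2)⁻¹))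
    (h : ∀ n ∈ M, IsPGroup p ↥(Subgroup.closure ({c, n * d * n⁻¹} : Set G))) :
    Nat.card (Sylow p B) = 1 := by
  classical
  set t₁ : G := c⁻¹ * d with ht₁d
  set t₂ : G := (c ^ 2)⁻¹ * d ^ 2 with ht₂d
  let f : G → B → Sylow p B → Prop := fun t b X =>
    (b : G) * t ∈ Subgroup.normalizer (((X : Subgroup B).map B.subtype : Subgroup G) : Set G)
  have hf : ∀ (t : G) (X : Sylow p B) (b b' : B), f t b X → f t b' X → (b' * b⁻¹) • X = X := by
    intro t X b b' hb hb'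
    rw [Sylow.smul_eq_iff_mem_normalizer]
    have h1 : ((b' * b⁻¹ : B) : G)
        ∈ Subgroup.normalizer (((X : Subgroup B).map B.subtype : Subgroup G) : Set G) := by
      have h2 : ((b' * b⁻¹ : B) : G) = ((b' : G) * t) * ((b : G) * t)⁻¹ := by
        push_cast; group
      rw [h2]
      exact mul_mem hb' (inv_mem hb)
    change b' * b⁻¹ ∈ Subgroup.normalizer (((X : Subgroup B)) : Set B)
    rw [Subgroup.mem_normalizer_iff] at h1 ⊢
    intro x
    have h2 := h1 (x : G)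
    have h3 : ∀ y : B, (y : G) ∈ ((X : Subgroup B).map B.subtype : Subgroup G) ↔ y ∈ (X : Subgroup B) := by
      intro y
      constructor
      · rintro ⟨z, hz, hzy⟩
        have : z = y := Subtype.ext hzy
        rwa [← this]
      · intro hy
        exact ⟨y, hy, rfl⟩
    rw [h3] at h2
    rw [h2]
    have h4 : ((b' * b⁻¹ : B) : G) * (x : G) * ((b' * b⁻¹ : B) : G)⁻¹
        = ((b' * b⁻¹ * x * (b' * b⁻¹)⁻¹ : B) : G) := by push_cast; rfl
    rw [h4, h3]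
  refine card_sylow_le_one (f t₁) (f t₂) (hf t₁) (hf t₂) ?_
  intro b₁ b₂
  set n₂ : G := c * b₁ * c⁻¹ with hn₂
  set n₃ : G := c ^ 2 * b₂ * (c ^ 2)⁻¹ with hn₃
  have hMn : (M : Subgroup G).Normal := inferInstance
  have hn₂M : n₂ ∈ M := hMn.conj_mem _ (hBM b₁.2) _
  have hn₃M : n₃ ∈ M := hMn.conj_mem _ (hBM b₂.2) _
  set n : G := n₂ * n₃ with hn
  have hnM : n ∈ M := mul_mem hn₂M hn₃M
  have hP := h n hnM
  obtain ⟨P, hPle⟩ := hP.exists_le_sylow
  have hcP : c ∈ (P : Subgroup G) := hPle (Subgroup.subset_closure (by simp))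
  have hdP : n * d * n⁻¹ ∈ (P : Subgroup G) := hPle (Subgroup.subset_closure (by simp))
  -- the trace of `P` on `B`
  have hPM : ¬ p ∣ (P : Subgroup G).relIndex M := not_dvd_relIndex _ _ P.not_dvd_index
  have hPB : ¬ p ∣ ((P : Subgroup G).subgroupOf B).index := by
    have hBn : (B.subgroupOf M).Normal := by
      constructor
      rintro ⟨x, hx⟩ hxB ⟨m, hm⟩
      have h1 := hMB hm
      rw [Subgroup.mem_normalizer_iff] at h1
      exact (h1 x).mp hxB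
    have h1 := not_dvd_relIndex ((P : Subgroup G).subgroupOf M) (B.subgroupOf M) hPM
    rwa [Subgroup.relIndex_subgroupOf hBM] at h1
  have hPBp : IsPGroup p ↥((P : Subgroup G).subgroupOf B) :=
    P.isPGroup'.comap_of_injective B.subtype B.subtype_injective
  let X : Sylow p B := hPBp.toSylow hPB
  have hXmem : ∀ x : G, x ∈ ((X : Subgroup B).map B.subtype : Subgroup G) ↔ x ∈ (P : Subgroup G) ∧ x ∈ B := by
    intro x
    constructor
    · rintro ⟨z, hz, rfl⟩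
      exact ⟨hz, z.2⟩
    · rintro ⟨h1, h2⟩
      exact ⟨⟨x, h2⟩, h1, rfl⟩
  have hnB : ∀ x ∈ B, n⁻¹ * x * n = x := by
    intro x hx
    have h1 : Commute x n₂ := hc₁ x hx _ b₁.2
    have h2 : Commute x n₃ := hc₂ x hx _ b₂.2
    have h3 : Commute x n := h1.mul_right h2
    rw [mul_assoc, h3.eq, ← mul_assoc, inv_mul_cancel, one_mul]
  refine ⟨X, ?_, ?_⟩
  · -- `b₁ t₁`
    refine Subgroup.mem_normalizer_fintype ?_
    intro x hx
    have hx' := (hXmem x).mp hx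
    -- `d x d⁻¹ = c y c⁻¹` with `y ∈ B`
    set y : G := t₁ * x * t₁⁻¹ with hy
    have hyB : y ∈ B := ((Subgroup.mem_normalizer_iff.mp ht₁) x).mp hx'.2
    have hdx : d * x * d⁻¹ = c * y * c⁻¹ := by rw [hy, ht₁d]; group
    have h3 : Commute n₃ (c * y * c⁻¹) := by
      have h4 := hc₁ y hyB b₂ b₂.2
      have h5 := h4.map (MulAut.conj c).toMonoidHom
      simp only [MulEquiv.toMonoidHom_eq_coe, MonoidHom.coe_coe, MulAut.conj_apply] at h5
      have h6 : c * (c * (b₂ : G) * c⁻¹) * c⁻¹ = n₃ := by rw [hn₃, pow_two]; group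
      rw [h6] at h5
      exact h5.symm
    have key : (c⁻¹ * (n * d * n⁻¹)) * x * (c⁻¹ * (n * d * n⁻¹))⁻¹
        = (b₁ : G) * t₁ * x * ((b₁ : G) * t₁)⁻¹ := by
      calc (c⁻¹ * (n * d * n⁻¹)) * x * (c⁻¹ * (n * d * n⁻¹))⁻¹
          = c⁻¹ * n * (d * (n⁻¹ * x * n) * d⁻¹) * n⁻¹ * c := by group
        _ = c⁻¹ * (n₂ * n₃) * (c * y * c⁻¹) * (n₂ * n₃)⁻¹ * c := by rw [hnB x hx'.2, hdx]
        _ = c⁻¹ * n₂ * (n₃ * (c * y * c⁻¹) * n₃⁻¹) * n₂⁻¹ * c := by group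
        _ = c⁻¹ * n₂ * (c * y * c⁻¹) * n₂⁻¹ * c := by
            rw [h3.eq, mul_inv_cancel_right]
        _ = (b₁ : G) * t₁ * x * ((b₁ : G) * t₁)⁻¹ := by rw [hn₂, hy]; group
    rw [← key]
    refine (hXmem _).mpr ⟨?_, ?_⟩
    · have h7 : c⁻¹ * (n * d * n⁻¹) ∈ (P : Subgroup G) := mul_mem (inv_mem hcP) hdP
      exact mul_mem (mul_mem h7 hx'.1) (inv_mem h7)
    · rw [key]
      have h8 : (b₁ : G) * t₁ ∈ Subgroup.normalizer (B : Set G) :=
        mul_mem (Subgroup.le_normalizer b₁.2) ht₁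
      exact ((Subgroup.mem_normalizer_iff.mp h8) x).mp hx'.2
  · -- `b₂ t₂`
    refine Subgroup.mem_normalizer_fintype ?_
    intro x hx
    have hx' := (hXmem x).mp hx
    set y : G := t₂ * x * t₂⁻¹ with hy
    have hyB : y ∈ B := ((Subgroup.mem_normalizer_iff.mp ht₂) x).mp hx'.2
    have hdx : d ^ 2 * x * (d ^ 2)⁻¹ = c ^ 2 * y * (c ^ 2)⁻¹ := by rw [hy, ht₂d]; group
    have h3 : Commute n₂ (c ^ 2 * y * (c ^ 2)⁻¹) := by
      have h4 := hc₁ b₁ b₁.2 y hyB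
      have h5 := h4.map (MulAut.conj c).toMonoidHom
      simp only [MulEquiv.toMonoidHom_eq_coe, MonoidHom.coe_coe, MulAut.conj_apply] at h5
      have h6 : c * (c * y * c⁻¹) * c⁻¹ = c ^ 2 * y * (c ^ 2)⁻¹ := by rw [pow_two]; group
      rw [h6] at h5
      exact h5
    have h32 : Commute n₂ n₃ := by
      have h4 := hc₁ b₁ b₁.2 b₂ b₂.2
      have h5 := h4.map (MulAut.conj c).toMonoidHom
      simp only [MulEquiv.toMonoidHom_eq_coe, MonoidHom.coe_coe, MulAut.conj_apply] at h5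
      have h6 : c * (c * (b₂ : G) * c⁻¹) * c⁻¹ = n₃ := by rw [hn₃, pow_two]; group
      rw [h6] at h5
      exact h5
    have key : ((c ^ 2)⁻¹ * (n * d * n⁻¹) ^ 2) * x * ((c ^ 2)⁻¹ * (n * d * n⁻¹) ^ 2)⁻¹
        = (b₂ : G) * t₂ * x * ((b₂ : G) * t₂)⁻¹ := by
      calc ((c ^ 2)⁻¹ * (n * d * n⁻¹) ^ 2) * x * ((c ^ 2)⁻¹ * (n * d * n⁻¹) ^ 2)⁻¹
          = (c ^ 2)⁻¹ * n * (d ^ 2 * (n⁻¹ * x * n) * (d ^ 2)⁻¹) * n⁻¹ * c ^ 2 := by
            rw [conj_pow]; group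
        _ = (c ^ 2)⁻¹ * (n₂ * n₃) * (c ^ 2 * y * (c ^ 2)⁻¹) * (n₂ * n₃)⁻¹ * c ^ 2 := by
            rw [hnB x hx'.2, hdx]
        _ = (c ^ 2)⁻¹ * (n₃ * n₂) * (c ^ 2 * y * (c ^ 2)⁻¹) * (n₃ * n₂)⁻¹ * c ^ 2 := by
            rw [h32.eq]
        _ = (c ^ 2)⁻¹ * n₃ * (n₂ * (c ^ 2 * y * (c ^ 2)⁻¹) * n₂⁻¹) * n₃⁻¹ * c ^ 2 := by group
        _ = (c ^ 2)⁻¹ * n₃ * (c ^ 2 * y * (c ^ 2)⁻¹) * n₃⁻¹ * c ^ 2 := by
            rw [h3.eq, mul_inv_cancel_right]
        _ = (b₂ : G) * t₂ * x * ((b₂ : G) * t₂)⁻¹ := by rw [hn₃, hy]; group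
    rw [← key]
    refine (hXmem _).mpr ⟨?_, ?_⟩
    · have h7 : (c ^ 2)⁻¹ * (n * d * n⁻¹) ^ 2 ∈ (P : Subgroup G) :=
        mul_mem (inv_mem (pow_mem hcP 2)) (pow_mem hdP 2)
      exact mul_mem (mul_mem h7 hx'.1) (inv_mem h7)
    · rw [key]
      have h8 : (b₂ : G) * t₂ ∈ Subgroup.normalizer (B : Set G) :=
        mul_mem (Subgroup.le_normalizer b₂.2) ht₂
      exact ((Subgroup.mem_normalizer_iff.mp h8) x).mp hx'.2

end Cfsg.Agent.H533.T5.Block
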